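import Cfsg.Agent.Lib.SporPres.Suz.ChevRels
import Cfsg.Agent.Lib.SporPres.Suz.Order
import Cfsg.Agent.Lib.Chev.Orders

/-! # The subgroup of index 1782 is G2(4) -/

set_option autoImplicit false

namespace Cfsg.Agent.Lib.SporPres.Suz.Chev

open Cfsg.Agent.Lib.SporPres.He Cfsg.Agent.Lib.Coset Cfsg.Lie

/-- The generators paired with the matrices. -/
noncomputable def pair (k : ℕ) : Cfsg.Spor.Suz × GL Idx Four := (φ k, A k)

theorem pair_inv (k : ℕ) : pair k * pair k = 1 := Prod.ext (pres.φ_inv k) (A_sq k)

theorem pair_base (w : List ℕ) (hw : w ∈ base6) : ev pair w = 1 := by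
  have h1 : ev φ w = 1 := pres.base_eq_one w (List.mem_filter.1 hw).1
  have h2 : ev A w = 1 := base6_one w hw
  refine Prod.ext ?_ ?_
  · show MonoidHom.fst Cfsg.Spor.Suz (GL Idx Four) (ev pair w) = 1
    rw [ev_comp]; exact h1
  · show MonoidHom.snd Cfsg.Spor.Suz (GL Idx Four) (ev pair w) = 1
    rw [ev_comp]; exact h2

/-- The subgroup generated by the first `k` pairs. -/
abbrev psub (k : ℕ) : Subgroup (Cfsg.Spor.Suz × GL Idx Four) :=
  Subgroup.closure (pair '' Set.Iio k)

theorem model6 {C : Cert} {k : ℕ} (hr : C.rels.all (isRot base6) = true)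
    (hs : lettersBelow k C.subs = true) : Cert.Model C pair (psub k) :=
  model_of pair_inv pair_base hr (mem_closure_letters hs)

theorem psub_six : (psub 6 : Set (Cfsg.Spor.Suz × GL Idx Four)).Finite ∧
    Nat.card (psub 6) ≤ 251596800 := by
  have h2 := card_step (card_bot pair)
    (S10.covers (model6 (C := S10.cert) (k := 0) (by decide +kernel) (by decide +kernel)))
  have h4 := card_step h2
    (S216.covers (model6 (C := S216.cert) (k := 2) (by decide +kernel) (by decide +kernel)))
  have h5 := card_step h4
    (S280.covers (model6 (C := S280.cert) (k := 4) (by decide +kernel) (by decide +kernel)))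
  exact card_step h5
    (S416.covers (model6 (C := S416.cert) (k := 5) (by decide +kernel) (by decide +kernel)))

theorem map_fst : (psub 6).map (MonoidHom.fst _ _) = sub 6 := by
  rw [MonoidHom.map_closure, Set.image_image]; rfl

theorem map_snd : (psub 6).map (MonoidHom.snd _ _) = Subgroup.closure (A '' Set.Iio 6) := by
  rw [MonoidHom.map_closure, Set.image_image]; rfl

theorem card_group : Nat.card (chevG2.group Four) = 251596800 := by
  have h := Cfsg.Agent.Lib.Chev.card_G2 (F := Four) (q := 4) Four.card_four
  norm_num at h ⊢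
  exact h

/-- A homomorphic image of the same order is isomorphic. -/
noncomputable def imageEquiv {Γ Δ : Type*} [Group Γ] [Group Δ] (P : Subgroup Γ) [Finite P]
    (f : Γ →* Δ) (H : Subgroup Δ) (hH : P.map f = H) (hc : Nat.card P ≤ Nat.card H) : P ≃* H :=
  (MulEquiv.ofBijective (f.subgroupMap P) (by
    have hs := f.subgroupMap_surjective P
    refine (Nat.bijective_iff_surjective_and_card _).2 ⟨hs, le_antisymm ?_ ?_⟩
    · rw [hH]; exact hc
    · exact Nat.card_le_card_of_surjective _ hs)).trans (MulEquiv.subgroupCongr hH)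

theorem group_eq : Subgroup.closure (A '' Set.Iio 6) = chevG2.group Four := by
  have : Finite (psub 6) := psub_six.1.to_subtype
  refine (Subgroup.eq_of_le_of_card_ge group_le ?_).symm
  rw [card_group, ← map_snd]
  exact (Nat.card_le_card_of_surjective _ ((MonoidHom.snd _ _).subgroupMap_surjective _)).trans
    psub_six.2

theorem nonempty_equiv : Nonempty (sub 6 ≃* chevG2.group Four) := by
  have : Finite (psub 6) := psub_six.1.to_subtype
  have e1 := imageEquiv (psub 6) (MonoidHom.fst _ _) (sub 6) map_fst
    (psub_six.2.trans card_six.ge)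
  have e2 := imageEquiv (psub 6) (MonoidHom.snd _ _) (chevG2.group Four) (map_snd.trans group_eq)
    (psub_six.2.trans card_group.ge)
  exact ⟨e1.symm.trans e2⟩

end Cfsg.Agent.Lib.SporPres.Suz.Chev
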