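import Cfsg.Prelude.Def_ChevG2
import Cfsg.Agent.Lib.SporPres.He.Four
import Cfsg.Agent.Lib.SporPres.Suz.ChevData

/-! # Evaluation of words in six matrices of G2(4) on packed rows -/

set_option autoImplicit false

namespace Cfsg.Agent.Lib.SporPres.Suz.Chev

open Cfsg.Agent.Lib.SporPres.He Cfsg.Lie Matrix

/-- The indices of the adjoint module. -/
abbrev Idx := chevG2.Idx

/-- The position of an index. -/
def pos : Idx → ℕ
  | .inl i => i
  | .inr r => 2 + r

/-- The element with two given bits. -/
def mk : Bool → Bool → Four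
  | false, false => .z0
  | true, false => .z1
  | false, true => .zw
  | true, true => .zv

theorem mk_xor : ∀ a b c d, mk (a ^^ c) (b ^^ d) = mk a b + mk c d := by decide +kernel

/-- An entry of a packed row. -/
def get (v p : ℕ) : Four := mk (v.testBit p) (v.testBit (14 + p))

theorem get_xor (x y p : ℕ) : get (x ^^^ y) p = get x p + get y p := by
  simp only [get, Nat.testBit_xor, mk_xor]

theorem get_zero (p : ℕ) : get 0 p = 0 := by
  simp only [get, Nat.zero_testBit]; rfl

/-- A row of a generator. -/
def one (g j : ℕ) : ℕ := (rowsOne.getD g []).getD j 0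

/-- A row of a generator times the cube root of unity. -/
def omg (g j : ℕ) : ℕ := (rowsW.getD g []).getD j 0

/-- The multiple of a row by the element with two given bits. -/
def sel (g j : ℕ) (a b : Bool) : ℕ := cond a (one g j) 0 ^^^ cond b (omg g j) 0

theorem omg_spec : ∀ g : Fin 6, ∀ j : Fin 14, ∀ p : Fin 14,
    get (omg g j) p = Four.zw * get (one g j) p := by decide +kernel

theorem mk_eq : ∀ a b, mk a b = cond a 1 0 + cond b Four.zw 0 := by decide +kernel

theorem get_sel (g j p : ℕ) (a b : Bool) (hg : g < 6) (hj : j < 14) (hp : p < 14) :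
    get (sel g j a b) p = mk a b * get (one g j) p := by
  have hw := omg_spec ⟨g, hg⟩ ⟨j, hj⟩ ⟨p, hp⟩
  simp only at hw
  rw [sel, get_xor, mk_eq, add_mul]
  cases a <;> cases b <;> simp [get_zero, hw]

/-- The product of a row and a generator, over the first `n` places. -/
def acc (g v : ℕ) : ℕ → ℕ
  | 0 => 0
  | n + 1 => acc g v n ^^^ sel g n (v.testBit n) (v.testBit (14 + n))

/-- The product of a row and a generator. -/
def step (v g : ℕ) : ℕ := acc g v 14

theorem get_acc (g v p : ℕ) (hg : g < 6) (hp : p < 14) : ∀ n ≤ 14,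
    get (acc g v n) p = ∑ j ∈ Finset.range n, get v j * get (one g j) p
  | 0, _ => by simp [acc, get_zero]
  | n + 1, h => by
    rw [acc, get_xor, Finset.sum_range_succ, get_acc g v p hg hp n (by omega),
      get_sel g n p _ _ hg (by omega) hp]
    rfl

theorem pos_lt : ∀ i : Idx, pos i < 14 := by decide +kernel

/-- The row of a packed row. -/
def vec (v : ℕ) : Idx → Four := fun i => get v (pos i)

/-- The matrix of a generator. -/
def M (g : ℕ) : Matrix Idx Idx Four := Matrix.of fun i j => get (one g (pos i)) (pos j)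

theorem sum_pos (f : ℕ → Four) : ∑ i : Idx, f (pos i) = ∑ k ∈ Finset.range 14, f k := by
  rw [Fintype.sum_sum_type, Finset.sum_range_add f 2 12]
  exact congrArg₂ (· + ·) (Fin.sum_univ_eq_sum_range f 2)
    (Fin.sum_univ_eq_sum_range (fun k => f (2 + k)) 12)

theorem vec_step (v g : ℕ) (hg : g < 6) : vec (step v g) = vec v ᵥ* M g := by
  funext j
  rw [vec, step, get_acc g v (pos j) hg (pos_lt j) 14 le_rfl,
    ← sum_pos fun k => get v k * get (one g k) (pos j)]
  rfl

theorem vec_foldl : ∀ (w : List ℕ), (∀ a ∈ w, a < 6) → ∀ v,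
    vec (w.foldl step v) = vec v ᵥ* (w.map M).prod
  | [], _, v => by simp
  | a :: w, h, v => by
    rw [List.foldl_cons, vec_foldl w (fun b hb => h b (List.mem_cons_of_mem _ hb)),
      vec_step v a (h a List.mem_cons_self), vecMul_vecMul, List.map_cons, List.prod_cons]

theorem vec_unit : ∀ i j : Idx, vec (2 ^ pos i) j = if j = i then 1 else 0 := by decide +kernel

/-- An entry of the product of a word. -/
def entry (w : List ℕ) (i j : Idx) : Four := get (w.foldl step (2 ^ pos i)) (pos j)

theorem prod_apply {w : List ℕ} (h : ∀ a ∈ w, a < 6) (i j : Idx) :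
    (w.map M).prod i j = entry w i j := by
  have he : vec (2 ^ pos i) = Pi.single i 1 := funext fun k => by
    rw [vec_unit, Pi.single_apply]
  show _ = vec (w.foldl step (2 ^ pos i)) j
  rw [vec_foldl w h, he, single_one_vecMul]
  rfl

theorem prod_eq {w : List ℕ} {N : Matrix Idx Idx Four} (h : w.all (· < 6) = true)
    (he : ∀ i j : Idx, entry w i j = N i j) : (w.map M).prod = N := by
  ext i j
  rw [prod_apply (fun a ha => decide_eq_true_eq.mp (List.all_eq_true.1 h a ha)), he]

end Cfsg.Agent.Lib.SporPres.Suz.Chev
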