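import Cfsg.Agent.Lib.SporPres.Suz.ChevFour
import Cfsg.Agent.Lib.SporPres.Suz.Pres

/-! # The six matrices satisfy the relators and generate G2(4) -/

set_option autoImplicit false

namespace Cfsg.Agent.Lib.SporPres.Suz.Chev

open Cfsg.Agent.Lib.SporPres.He Cfsg.Agent.Lib.Coset Cfsg.Lie Matrix

theorem M_sq (g : Fin 6) : M g * M g = 1 := by
  have h : ∀ g : Fin 6, ∀ i j : Idx,
      (entry [(g : ℕ), (g : ℕ)] i j == (1 : Matrix Idx Idx Four) i j) = true := by decide +kernel
  have := prod_eq (w := [(g : ℕ), (g : ℕ)]) (by simp [g.2]) fun i j => eq_of_beq (h g i j)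
  simpa using this

/-- The six involutions. -/
def A (k : ℕ) : GL Idx Four :=
  if h : k < 6 then ⟨M k, M k, M_sq ⟨k, h⟩, M_sq ⟨k, h⟩⟩ else 1

theorem A_sq (k : ℕ) : A k * A k = 1 := by
  unfold A
  split
  · exact Units.ext (M_sq ⟨k, by assumption⟩)
  · exact one_mul 1

theorem coe_ev : ∀ w : List ℕ, (∀ a ∈ w, a < 6) →
    ((ev A w : GL Idx Four) : Matrix Idx Idx Four) = (w.map M).prod
  | [], _ => rfl
  | a :: w, h => by
    rw [ev_cons, Units.val_mul, coe_ev w fun b hb => h b (List.mem_cons_of_mem _ hb),
      List.map_cons, List.prod_cons, A, dif_pos (h a List.mem_cons_self)]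

/-- The relators in the first six letters. -/
def base6 : List (List ℕ) := pres.base.filter fun w => w.all (· < 6)

theorem base6_check : ∀ w ∈ base6, ∀ i j : Idx,
    (entry w i j == (1 : Matrix Idx Idx Four) i j) = true := by decide +kernel

theorem base6_one (w : List ℕ) (hw : w ∈ base6) : ev A w = 1 := by
  have h : w.all (· < 6) = true := (List.mem_filter.1 hw).2
  refine Units.ext ?_
  rw [coe_ev w fun a ha => decide_eq_true_eq.mp (List.all_eq_true.1 h a ha),
    prod_eq h fun i j => eq_of_beq (base6_check w hw i j), Units.val_one]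

theorem root_letters : (rootWords.all fun w => w.all (· < 6)) = true := by decide +kernel

theorem root_check : ∀ r : Fin chevG2.nroots, ∀ t : Four, ∀ i j : Idx,
    (entry (rootWords.getD ((r : ℕ) * 4 + t.code) []) i j == chevG2.xMat Four r t i j) = true := by
  decide +kernel

theorem group_le : chevG2.group Four ≤ Subgroup.closure (A '' Set.Iio 6) := by
  refine (Subgroup.closure_le _).2 ?_
  rintro g ⟨r, t, hg⟩
  set w := rootWords.getD ((r : ℕ) * 4 + t.code) []
  have hw : w.all (· < 6) = true := by
    by_cases hlt : (r : ℕ) * 4 + t.code < rootWords.length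
    · refine List.all_eq_true.1 root_letters w ?_
      simp only [w, List.getD_eq_getElem _ _ hlt, List.getElem_mem]
    · simp only [w, List.getD_eq_default _ _ (not_lt.1 hlt), List.all_nil]
  have hlt : ∀ a ∈ w, a < 6 := fun a ha => decide_eq_true_eq.mp (List.all_eq_true.1 hw a ha)
  have he : g = ev A w := Units.ext (by
    rw [hg, coe_ev w hlt, prod_eq hw fun i j => eq_of_beq (root_check r t i j)])
  rw [he]
  exact ev_mem_closure _ fun a ha => Subgroup.subset_closure ⟨a, hlt a ha, rfl⟩

end Cfsg.Agent.Lib.SporPres.Suz.Chev
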